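import Cfsg.Agent.H65.Twist.F4Perfect
import Cfsg.Agent.H70.F4Out.Cells

/-!
Coordinates in the twisted groups of type F₄: the group law of the B₂ class, the action of the diagonal group.
-/

set_option autoImplicit false
set_option maxRecDepth 100000

open Cfsg.Lie Cfsg.Agent.H46 Cfsg.Agent.H65.Twist

namespace Cfsg.Agent.H70.F4Out

variable {K : Type*} [Field K] [Fintype K] [CharP K 2] {m : ℕ}

/-- The group law of a block of type B₂. -/
theorem word_mul (a b c d a' b' c' d' : K) :
    (f4Pos K).word a b c d * (f4Pos K).word a' b' c' d' =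
      (f4Pos K).word (a + a') (b + b') (a' * b + c + c') (a' ^ 2 * b + d + d') := by
  set P := f4Pos K with hP
  have hC : ∀ a c (g : ↥(chevF4.group K)), P.C c * (P.A a * g) = P.A a * (P.C c * g) := fun a c g => by
    rw [← mul_assoc, ← mul_assoc]; exact congrArg (· * g) (b2_top_central (r := 27) (s := 28) (by simp) a c).symm
  have hE : ∀ a c (g : ↥(chevF4.group K)), P.E c * (P.A a * g) = P.A a * (P.E c * g) := fun a c g => by
    rw [← mul_assoc, ← mul_assoc]; exact congrArg (· * g) (b2_top_central (r := 27) (s := 30) (by simp) a c).symm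
  have hC' : ∀ a c (g : ↥(chevF4.group K)), P.C c * (P.B a * g) = P.B a * (P.C c * g) := fun a c g => by
    rw [← mul_assoc, ← mul_assoc]; exact congrArg (· * g) (b2_top_central (r := 25) (s := 28) (by simp) a c).symm
  have hE' : ∀ a c (g : ↥(chevF4.group K)), P.E c * (P.B a * g) = P.B a * (P.E c * g) := fun a c g => by
    rw [← mul_assoc, ← mul_assoc]; exact congrArg (· * g) (b2_top_central (r := 25) (s := 30) (by simp) a c).symm
  have h1 : P.word a b c d * P.word a' b' c' d' =
      P.A a * (P.B b * P.A a') * (P.B b' * (P.C c * P.E d * (P.C c' * P.E d'))) := by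
    simp only [B2Block.word, mul_assoc]
    rw [hE, hC, hE', hC']
  rw [h1, P.swap, P.two_mul', B2Block.word]
  simp only [mul_assoc]
  rw [hE', hC', ← mul_assoc (P.C (a' * b)), P.two_mul']
  simp only [← mul_assoc, ← add_assoc]
  rw [show P.A a * P.A a' = P.A (a + a') from f4_xE_add 27 a a',
    mul_assoc (P.A (a + a')) (P.B b) (P.B b'), show P.B b * P.B b' = P.B (b + b') from f4_xE_add 25 b b']

theorem b2U_mul (hK : Fintype.card K = 2 ^ (2 * m + 1)) (t u t' u' : K) :
    b2U K m t u * b2U K m t' u' = b2U K m (t + t') (u + u' + iterateFrobenius K 2 m t * t') := by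
  rw [b2U, b2U, b2U, word_mul]
  congr 1
  · rw [map_add]
  · rw [map_add]
    linear_combination (-(iterateFrobenius K 2 m t * t')) * two_zero K
  · rw [map_add, map_add, map_mul, (f4_frob hK t).1, f4_psi t']
    ring

theorem b2U_zero : b2U K m 0 0 = 1 := by
  rw [b2U, map_zero, mul_zero, zero_add, map_zero]
  exact Subtype.ext (by simp [B2Block.word, f4Pos, xE, goodF4.xg_zero])

theorem pairU_zero : pairU K m 0 = 1 := by
  rw [pairU, map_zero]
  exact Subtype.ext (by simp [xE, goodF4.xg_zero])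

/-- The squares fill the top of the B₂ class. -/
theorem b2U_sq (hK : Fintype.card K = 2 ^ (2 * m + 1)) (t u : K) :
    b2U K m t u * b2U K m t u = b2U K m 0 (iterateFrobenius K 2 m t * t) := by
  rw [b2U_mul hK, CharTwo.add_self_eq_zero, CharTwo.add_self_eq_zero, zero_add]

/-- A diagonal element acts by two weights, which determine it. -/
theorem torus_spec (hK : Fintype.card K = 2 ^ (2 * m + 1)) {h : ↥(chevF4.group K)}
    (hh : h ∈ (f4Setup K hK).data.H0) :
    ∃ α β : Kˣ, (∀ t, h * pairU K m t * h⁻¹ = pairU K m ((α : K) * t)) ∧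
      (∀ t u, h * b2U K m t u * h⁻¹ =
        b2U K m ((β : K) * t) (iterateFrobenius K 2 m (β : K) * (β : K) * u)) ∧ (α = 1 → β = 1 → h = 1) := by
  obtain ⟨z, hz⟩ := goodF4.mem_diagonal.1 (Subgroup.mem_subgroupOf.1 (Subgroup.mem_inf.1 hh).1)
  obtain rfl : h = torusE goodF4 z := Subtype.ext hz
  have hf := (f4Setup K hK).W_fixed _ (Subgroup.mem_inf.1 hh).2
  have h27 : (goodF4.torusVal z 27 : K) = iterateFrobenius K 2 m (goodF4.torusVal z 25 : K) := by
    rw [((torus_fixed_f4 hK z).1 hf).2, (f4_frob hK _).2]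
  have h28 : (goodF4.torusVal z 28 : K) =
      iterateFrobenius K 2 m (goodF4.torusVal z 25 : K) * (goodF4.torusVal z 25 : K) := by
    rw [f4_val_sum.2.1, Units.val_mul, h27]
  refine ⟨goodF4.torusVal z 24, goodF4.torusVal z 25, fun t => torus_conj_pairU hK hf t,
    fun t u => by rw [torus_conj_b2U hK hf, h28], fun ha hb => ?_⟩
  have h1' : torusE goodF4 (1 : Fin chevF4.rank → Kˣ) = 1 := Subtype.ext (map_one _)
  rw [← h1']
  refine f4_fixed_ext hK hf (by rw [h1', map_one]) ?_ ?_ <;> rw [goodF4.torusVal_one] <;>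
    refine Units.ext ((iterateFrobenius K 2 (m + 1)).injective ?_)
  · rw [← ((torus_fixed_f4 hK z).1 hf).1, ha]; simp
  · rw [← ((torus_fixed_f4 hK z).1 hf).2, hb]; simp

/-- Every pair of weights occurs; the first reflection moves the first weight to the second. -/
theorem exists_torus (hK : Fintype.card K = 2 ^ (2 * m + 1)) (α β : Kˣ) :
    ∃ h ∈ (f4Setup K hK).data.H0, (∀ t, h * pairU K m t * h⁻¹ = pairU K m ((α : K) * t)) ∧
      (∀ t u, h * b2U K m t u * h⁻¹ =
        b2U K m ((β : K) * t) (iterateFrobenius K 2 m (β : K) * (β : K) * u)) ∧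
      (β = 1 → ∀ t u, (f4Setup K hK).data.nS 0 * h * ((f4Setup K hK).data.nS 0)⁻¹ * b2U K m t u *
        ((f4Setup K hK).data.nS 0 * h * ((f4Setup K hK).data.nS 0)⁻¹)⁻¹ =
          b2U K m ((α : K) * t) (iterateFrobenius K 2 m (α : K) * (α : K) * u)) := by
  obtain ⟨z, hz33, hz27, hzf⟩ := f4_exists_fixed hK (Units.map (iterateFrobenius K 2 m).toMonoidHom α)
    (Units.map (iterateFrobenius K 2 m).toMonoidHom β)
  have h24 : (goodF4.torusVal z 24 : K) = α := by
    rw [((torus_fixed_f4 hK z).1 hzf).1, hz33]; exact (f4_frob hK _).1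
  have h25 : (goodF4.torusVal z 25 : K) = β := by
    rw [((torus_fixed_f4 hK z).1 hzf).2, hz27]; exact (f4_frob hK _).1
  have h28 : (goodF4.torusVal z 28 : K) = iterateFrobenius K 2 m (β : K) * (β : K) := by
    rw [f4_val_sum.2.1, Units.val_mul, h25, hz27]; rfl
  have hmem := f4_fixed_diag_mem hK (goodF4.mem_diagonal.2 ⟨z, rfl⟩) hzf
  refine ⟨_, hmem, fun t => by rw [torus_conj_pairU hK hzf, h24],
    fun t u => by rw [torus_conj_b2U hK hzf, h25, h28], fun hβ => ?_⟩
  -- conjugation by the representative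
  have hn : (f4N K 0 : GL chevF4.Idx K) ∈ chevF4.monomialSubgroup K := goodF4.nProd_mem _
  obtain ⟨v, hv⟩ := goodF4.mem_diagonal.1 (goodF4.diagonal_normalized hn (goodF4.mem_diagonal.2 ⟨z, rfl⟩))
  have hv27 : goodF4.torusVal v 27 = goodF4.torusVal z 34 := by
    obtain ⟨-, -, -, -, -, -, -, -, -, -, -, hw⟩ := f4_simple_facts
    have h1 := torusVal_conj goodF4 hn hv (f4WJ 0 ⟨27, by decide +kernel⟩)
    rw [f4N_perm, f4_facts.invol] at h1
    refine h1.trans (congrArg (goodF4.torusVal z) ?_)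
    exact (hw 0).2.trans rfl
  have e : (f4Setup K hK).data.nS 0 * torusE goodF4 z * ((f4Setup K hK).data.nS 0)⁻¹ = torusE goodF4 v :=
    Subtype.ext hv
  have hvf : f4Tau K m (torusE goodF4 v) = torusE goodF4 v := by
    rw [← e]
    exact (f4Setup K hK).W_fixed _ (mul_mem (mul_mem ((f4Setup K hK).nS_W 0) (Subgroup.mem_inf.1 hmem).2)
      (inv_mem ((f4Setup K hK).nS_W 0)))
  have hv25 : (goodF4.torusVal v 25 : K) = α := by
    rw [((torus_fixed_f4 hK v).1 hvf).2, hv27, f4_val_sum.1, hz33, hz27, hβ, map_one, mul_one]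
    exact (f4_frob hK _).1
  have hv28 : (goodF4.torusVal v 28 : K) = iterateFrobenius K 2 m (α : K) * (α : K) := by
    rw [f4_val_sum.2.1, Units.val_mul, hv25, hv27, f4_val_sum.1, hz33, hz27, hβ, map_one, mul_one]; rfl
  intro t u
  rw [e, torus_conj_b2U hK hvf, hv25, hv28]

end Cfsg.Agent.H70.F4Out
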