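import Cfsg.Agent.H70.F4Out.Cells
import Cfsg.Agent.H19.SchurZassenhaus

/-!
Automorphisms of a twisted group of rank two: after an inner automorphism they preserve the diagonal group,
the class groups and the cosets of the simple representatives; such an automorphism is determined by the class groups.
-/

set_option autoImplicit false

namespace Cfsg.Agent.H70.F4Out

open Cfsg.Agent.H47
open scoped Pointwise

variable {Γ : Type*} [Group Γ]

section Ap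

variable {G : Subgroup Γ}

open Classical in
/-- An automorphism of a subgroup as a map of the ambient group. -/
noncomputable def ap (θ : MulAut ↥G) (g : Γ) : Γ := if h : g ∈ G then ((θ ⟨g, h⟩ : ↥G) : Γ) else 1

theorem ap_coe (θ : MulAut ↥G) {g : Γ} (hg : g ∈ G) : ap θ g = ((θ ⟨g, hg⟩ : ↥G) : Γ) := by
  rw [ap, dif_pos hg]

theorem ap_mem (θ : MulAut ↥G) {g : Γ} (hg : g ∈ G) : ap θ g ∈ G := by
  rw [ap_coe θ hg]; exact SetLike.coe_mem _

theorem ap_one (θ : MulAut ↥G) : ap θ 1 = 1 := by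
  rw [ap_coe θ (one_mem G)]; exact congrArg Subtype.val (map_one θ)

theorem ap_mul (θ : MulAut ↥G) {a b : Γ} (ha : a ∈ G) (hb : b ∈ G) : ap θ (a * b) = ap θ a * ap θ b := by
  rw [ap_coe θ ha, ap_coe θ hb, ap_coe θ (mul_mem ha hb), ← Subgroup.coe_mul, ← map_mul]
  rfl

theorem ap_inv (θ : MulAut ↥G) {a : Γ} (ha : a ∈ G) : ap θ a⁻¹ = (ap θ a)⁻¹ := by
  rw [ap_coe θ ha, ap_coe θ (inv_mem ha), ← Subgroup.coe_inv, ← map_inv]
  rfl

theorem ap_conj (θ : MulAut ↥G) {a b : Γ} (ha : a ∈ G) (hb : b ∈ G) :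
    ap θ (a * b * a⁻¹) = ap θ a * ap θ b * (ap θ a)⁻¹ := by
  rw [ap_mul θ (mul_mem ha hb) (inv_mem ha), ap_mul θ ha hb, ap_inv θ ha]

theorem ap_comp (θ φ : MulAut ↥G) {g : Γ} (hg : g ∈ G) : ap (θ * φ) g = ap θ (ap φ g) := by
  rw [ap_coe _ hg, ap_coe φ hg, ap_coe θ (SetLike.coe_mem _)]
  rfl

theorem ap_symm (θ : MulAut ↥G) {g : Γ} (hg : g ∈ G) : ap θ (ap θ⁻¹ g) = g := by
  rw [← ap_comp θ θ⁻¹ hg, mul_inv_cancel, ap_coe _ hg]
  rfl

theorem ap_inj (θ : MulAut ↥G) {a b : Γ} (ha : a ∈ G) (hb : b ∈ G) (e : ap θ a = ap θ b) : a = b := by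
  rw [ap_coe θ ha, ap_coe θ hb] at e
  exact congrArg Subtype.val (θ.injective (Subtype.ext e))

theorem ap_conj_aut (x : ↥G) {g : Γ} (hg : g ∈ G) : ap (MulAut.conj x) g = x * g * (x : Γ)⁻¹ := by
  rw [ap_coe _ hg]; rfl

/-- The subgroup is preserved. -/
def Fixes (θ : MulAut ↥G) (S : Subgroup Γ) : Prop := ∀ g ∈ G, (ap θ g ∈ S ↔ g ∈ S)

theorem Fixes.mul {θ φ : MulAut ↥G} {S : Subgroup Γ} (h : Fixes θ S) (h' : Fixes φ S) : Fixes (θ * φ) S :=
  fun g hg => by rw [ap_comp θ φ hg, h _ (ap_mem φ hg), h' g hg]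

theorem Fixes.inv {θ : MulAut ↥G} {S : Subgroup Γ} (h : Fixes θ S) : Fixes θ⁻¹ S := fun g hg => by
  rw [← h _ (ap_mem θ⁻¹ hg), ap_symm θ hg]

theorem fixes_of_map [Finite ↥G] (θ : MulAut ↥G) {S : Subgroup Γ} (hS : ∀ g ∈ G, g ∈ S → ap θ g ∈ S) :
    Fixes θ S := by
  intro g hg
  refine ⟨fun h => ?_, hS g hg⟩
  let A := S.subgroupOf G
  have hle : A.map θ.toMonoidHom ≤ A := by
    rintro _ ⟨a, ha, rfl⟩
    have := hS _ a.2 ha
    rwa [ap_coe θ a.2] at this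
  have heq : A.map θ.toMonoidHom = A := Subgroup.eq_of_le_of_card_ge hle
    (Nat.card_congr (A.equivMapOfInjective θ.toMonoidHom θ.injective).toEquiv).le
  have hmem : θ ⟨g, hg⟩ ∈ A.map θ.toMonoidHom := by
    rw [heq, Subgroup.mem_subgroupOf, ← ap_coe θ hg]; exact h
  obtain ⟨a, ha, e⟩ := hmem
  have : g = (a : Γ) := congrArg Subtype.val (θ.injective e).symm
  rw [this]; exact ha

end Ap

variable (T : TwistData Γ (Fin 2)) (hne : ∀ j, ∃ x ∈ T.X1 j, x ≠ 1)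
  (hfree : ∀ j, ∀ x ∈ T.X1 j, (∀ h ∈ T.H0, h * x = x * h) → x = 1)

theorem H0_le_G1 : T.H0 ≤ T.G1 := T.H0_le_N0.trans T.N0_le_G1

theorem X1_le_U1 (j : Fin 2) : T.X1 j ≤ T.U1 := fun _ hx => ⟨T.X_le_U j hx.1, hx.2⟩

variable {θ : MulAut ↥T.G1} (hU : Fixes θ T.U1) (hH : Fixes θ T.H0)

include hne hU in
theorem fixes_B1 : Fixes θ T.B1 := by
  have : ∀ φ : MulAut ↥T.G1, Fixes φ T.U1 → ∀ g ∈ T.G1, g ∈ T.B1 → ap φ g ∈ T.B1 := by
    intro φ hφ g hg hgB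
    refine mem_B1_of_conj_U1 T hne (ap_mem φ hg) fun u hu => ?_
    have hu' := (hφ.inv u (T.U1_le_G1 hu)).2 hu
    have e := ap_conj φ hg (ap_mem φ⁻¹ (T.U1_le_G1 hu))
    rw [ap_symm φ (T.U1_le_G1 hu)] at e
    rw [← e]
    refine (hφ _ (mul_mem (mul_mem hg (T.U1_le_G1 hu')) (inv_mem hg))).2 ?_
    obtain ⟨v, hv, h, hh, rfl⟩ := T.B1_eq hgB
    have := mul_mem (mul_mem hv (T.H0_conj_U1 hh hu')) (inv_mem hv)
    convert this using 1
    group
  intro g hg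
  refine ⟨fun h => ?_, this θ hU g hg⟩
  have h2 := this θ⁻¹ hU.inv _ (ap_mem θ hg) h
  rwa [← ap_comp θ⁻¹ θ hg, inv_mul_cancel, ap_coe _ hg] at h2

include hne hfree hH in
theorem fixes_N0 : Fixes θ T.N0 := by
  have : ∀ φ : MulAut ↥T.G1, Fixes φ T.H0 → ∀ g ∈ T.G1, g ∈ T.N0 → ap φ g ∈ T.N0 := by
    intro φ hφ g hg hgN
    refine mem_N0_of_conj_H0 T hne hfree (ap_mem φ hg) fun u hu => ?_
    have hu' := (hφ.inv u (H0_le_G1 T hu)).2 hu
    have e := ap_conj φ hg (ap_mem φ⁻¹ (H0_le_G1 T hu))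
    rw [ap_symm φ (H0_le_G1 T hu)] at e
    rw [← e]
    exact (hφ _ (mul_mem (mul_mem hg (H0_le_G1 T hu')) (inv_mem hg))).2 (T.H0_normal hgN hu')
  intro g hg
  refine ⟨fun h => ?_, this θ hH g hg⟩
  have h2 := this θ⁻¹ hH.inv _ (ap_mem θ hg) h
  rwa [← ap_comp θ⁻¹ θ hg, inv_mul_cancel, ap_coe _ hg] at h2

include hU hH in
theorem ap_cell {m : Γ} (hm : m ∈ T.N0) {g : Γ} (hg : g ∈ T.cell m) : ap θ g ∈ T.cell (ap θ m) := by
  obtain ⟨u, hu, h, hh, u', hu', rfl⟩ := hg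
  have hmG := T.N0_le_G1 hm
  have huG := T.U1_le_G1 hu
  have hu'G := T.U1_le_G1 hu'
  have hhG := H0_le_G1 T hh
  exact ⟨_, (hU u huG).2 hu, _, (hH h hhG).2 hh, _, (hU u' hu'G).2 hu', by
    rw [ap_mul θ (mul_mem huG (mul_mem hmG hhG)) hu'G, ap_mul θ huG (mul_mem hmG hhG), ap_mul θ hmG hhG]⟩

include hne hfree hU hH in
theorem card_cell_ap [Finite Γ] {m : Γ} (hm : m ∈ T.N0) :
    Nat.card (T.U1w (ap θ m)) = Nat.card (T.U1w m) := by
  have hm' : ap θ m ∈ T.N0 := (fixes_N0 T hne hfree hH m (T.N0_le_G1 hm)).2 hm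
  have key : ∀ (φ : MulAut ↥T.G1), Fixes φ T.U1 → Fixes φ T.H0 → ∀ k ∈ T.N0,
      Nat.card (T.cell k) ≤ Nat.card (T.cell (ap φ k)) := fun φ h1 h2 k hk =>
    Nat.card_le_card_of_injective (fun g => ⟨ap φ g.1, ap_cell T h1 h2 hk g.2⟩) fun a b e =>
      Subtype.ext (ap_inj φ (T.cell_subset_G1 hk a.2) (T.cell_subset_G1 hk b.2) (congrArg Subtype.val e))
  have h1 := key θ hU hH m hm
  have h2 := key θ⁻¹ hU.inv hH.inv _ hm'
  rw [← ap_comp θ⁻¹ θ (T.N0_le_G1 hm), inv_mul_cancel, show ap (1 : MulAut ↥T.G1) m = m from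
    (ap_coe _ (T.N0_le_G1 hm)).trans rfl] at h2
  have h3 : Nat.card (T.cell m) = Nat.card (T.cell (ap θ m)) := le_antisymm h1 h2
  rw [T.card_cell hm, T.card_cell hm'] at h3
  exact (Nat.eq_of_mul_eq_mul_left Nat.card_pos h3).symm

variable {q : ℕ} (hq : 1 < q) (hX : ∀ j, Nat.card (T.X1 j) = q ^ (j.val + 1))

include hne hfree hU hH hq hX in
theorem ap_nS [Finite Γ] (j : Fin 2) : ∃ k ∈ T.H0, ap θ (T.nS j) = k * T.nS j := by
  set m := ap θ (T.nS j)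
  have hm : m ∈ T.N0 := (fixes_N0 T hne hfree hH _ (T.N0_le_G1 (T.nS_mem_N0 j))).2 (T.nS_mem_N0 j)
  have hc : Nat.card (T.U1w m) = q ^ (j.val + 1) := by
    rw [card_cell_ap T hne hfree hU hH (T.nS_mem_N0 j), U1w_nS T hne j, hX]
  have hstep : ∀ k ∈ T.N0, k ∉ T.H0 → ∃ i : Fin 2, T.Desc k i ∧
      Nat.card (T.U1w k) = q ^ (i.val + 1) * Nat.card (T.U1w (k * (T.nS i)⁻¹)) := fun k hk hkH => by
    obtain ⟨i, hi⟩ := desc_of_not_mem T hk hkH
    exact ⟨i, hi, by rw [T.card_U1w_step hk hi, hX]⟩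
  have hmH : m ∉ T.H0 := fun h => by
    rw [T.U1w_H (T.H0_le_H h), Subgroup.card_bot] at hc
    exact absurd hc (Nat.one_lt_pow (by omega) hq).ne
  obtain ⟨i, hi, e⟩ := hstep m hm hmH
  have hm' : m * (T.nS i)⁻¹ ∈ T.N0 := mul_mem hm (inv_mem (T.nS_mem_N0 i))
  rw [hc] at e
  by_cases hH' : m * (T.nS i)⁻¹ ∈ T.H0
  · rw [T.U1w_H (T.H0_le_H hH'), Subgroup.card_bot, mul_one] at e
    have : i = j := Fin.ext (by have := Nat.pow_right_injective (by omega : 2 ≤ q) e; omega)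
    exact ⟨_, hH', by rw [this, inv_mul_cancel_right]⟩
  · exfalso
    obtain ⟨i', hi', e'⟩ := hstep _ hm' hH'
    rw [e'] at e
    set c := Nat.card (T.U1w (m * (T.nS i)⁻¹ * (T.nS i')⁻¹))
    have hcp : 0 < c := Nat.card_pos
    have hle : q ^ (i.val + 1) * q ^ (i'.val + 1) ≤ q ^ (j.val + 1) := by
      rw [e, ← mul_assoc]; exact Nat.le_mul_of_pos_right _ hcp
    rw [← pow_add] at hle
    have h3 := (Nat.pow_le_pow_iff_right hq).1 hle
    have hii : i = i' := Fin.ext (by omega)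
    exact (T.desc_step m hm i hi).2 (hii ▸ hi')

include hne hfree hU hH hq hX in
theorem fixes_X1 [Finite Γ] (j : Fin 2) : Fixes θ (T.X1 j) := by
  obtain ⟨m₀, hm₀, htop⟩ := T.exists_top
  -- the image of an element of the monomial group is the same up to the diagonal group
  have hN : ∀ m ∈ T.N0, ∃ k ∈ T.H0, ap θ m = k * m := by
    intro m hm
    have hm' : m ∈ Subgroup.closure (Set.range T.nS ∪ (T.H0 : Set Γ)) := by
      rwa [Subgroup.closure_union, Subgroup.closure_eq]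
    clear hm
    induction hm' using Subgroup.closure_induction with
    | mem x hx =>
      rcases hx with ⟨i, rfl⟩ | hx
      · exact ap_nS T hne hfree hU hH hq hX i
      · exact ⟨ap θ x * x⁻¹, mul_mem ((hH x (H0_le_G1 T hx)).2 hx) (inv_mem hx), by group⟩
    | one => exact ⟨1, one_mem _, by rw [ap_one, one_mul]⟩
    | mul x y hx hy hix hiy =>
      have hN' : ∀ z ∈ Subgroup.closure (Set.range T.nS ∪ (T.H0 : Set Γ)), z ∈ T.N0 := fun z hz => by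
        rwa [Subgroup.closure_union, Subgroup.closure_eq] at hz
      obtain ⟨k, hk, e⟩ := hix
      obtain ⟨l, hl, e'⟩ := hiy
      refine ⟨k * (x * l * x⁻¹), mul_mem hk (T.H0_normal (hN' x hx) hl), ?_⟩
      rw [ap_mul θ (T.N0_le_G1 (hN' x hx)) (T.N0_le_G1 (hN' y hy)), e, e']
      group
    | inv x hx hix =>
      have hxN : x ∈ T.N0 := by rwa [Subgroup.closure_union, Subgroup.closure_eq] at hx
      obtain ⟨k, hk, e⟩ := hix
      refine ⟨x⁻¹ * k⁻¹ * x, by simpa using T.H0_normal (inv_mem hxN) (inv_mem hk), ?_⟩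
      rw [ap_inv θ (T.N0_le_G1 hxN), e]
      group
  intro g hg
  obtain ⟨k, hk, e⟩ := hN _ (mul_mem (inv_mem hm₀) (T.nS_mem_N0 j))
  set a := m₀⁻¹ * T.nS j with ha
  have haG : a ∈ T.G1 := T.N0_le_G1 (mul_mem (inv_mem hm₀) (T.nS_mem_N0 j))
  rw [mem_X1_iff T hne hm₀ htop j, mem_X1_iff T hne hm₀ htop j, hU g hg]
  refine and_congr_right fun _ => ?_
  rw [← hU _ (mul_mem (mul_mem haG hg) (inv_mem haG)), ap_conj θ haG hg, e]
  constructor
  · intro h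
    have := T.H0_conj_U1 hk h
    convert this using 1
    simp only [ha]; group
  · intro h
    have := T.H0_conj_U1 (inv_mem hk) h
    convert this using 1
    simp only [ha]; group

/-- After an inner automorphism the unipotent, diagonal and class groups are preserved, the representatives up to
diagonal elements. -/
theorem normalise [Finite Γ] (hne : ∀ j, ∃ x ∈ T.X1 j, x ≠ 1)
    (hfree : ∀ j, ∀ x ∈ T.X1 j, (∀ h ∈ T.H0, h * x = x * h) → x = 1)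
    (hq : 1 < q) (hX : ∀ j, Nat.card (T.X1 j) = q ^ (j.val + 1)) {p : ℕ} [Fact p.Prime]
    (hpU : IsPGroup p T.U1) (hpi : ¬ p ∣ (T.U1.subgroupOf T.G1).index)
    (hco : (Nat.card T.U1).Coprime (Nat.card T.H0)) (θ : MulAut ↥T.G1) :
    ∃ x : ↥T.G1, Fixes (MulAut.conj x * θ) T.U1 ∧ Fixes (MulAut.conj x * θ) T.H0 ∧
      ∀ j, Fixes (MulAut.conj x * θ) (T.X1 j) ∧ ∃ k ∈ T.H0, ap (MulAut.conj x * θ) (T.nS j) = k * T.nS j := by
  classical
  let P : Sylow p ↥T.G1 := (hpU.of_equiv (Subgroup.subgroupOfEquivOfLe T.U1_le_G1).symm).toSylow hpi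
  have hP : (P : Subgroup ↥T.G1) = T.U1.subgroupOf T.G1 := IsPGroup.toSylow_coe ..
  let P' : Sylow p ↥T.G1 := P.mapSurjective (f := θ.toMonoidHom) θ.surjective
  obtain ⟨x₁, hx₁⟩ := MulAction.exists_smul_eq ↥T.G1 P' P
  set θ₁ := MulAut.conj x₁ * θ
  have hU₁ : Fixes θ₁ T.U1 := fixes_of_map θ₁ fun g hg hgU => by
    have h1 : θ₁ ⟨g, hg⟩ ∈ (P : Subgroup ↥T.G1) := by
      rw [← hx₁, Sylow.coe_subgroup_smul]
      refine ⟨θ ⟨g, hg⟩, Subgroup.mem_map_of_mem θ.toMonoidHom (hP.symm ▸ hgU), ?_⟩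
      rfl
    rw [hP, Subgroup.mem_subgroupOf, ← ap_coe θ₁ hg] at h1
    exact h1
  have hB := fixes_B1 T hne hU₁
  -- complements of the unipotent group in the Borel group
  have hUB : T.U1 ≤ T.B1 := le_sup_left
  have hHB : T.H0 ≤ T.B1 := le_sup_right
  set N := T.U1.subgroupOf T.B1
  haveI : N.Normal := ⟨fun n hn g => by
    obtain ⟨u, hu, h, hh, e⟩ := T.B1_eq g.2
    rw [Subgroup.mem_subgroupOf] at hn ⊢
    have := mul_mem (mul_mem hu (T.H0_conj_U1 hh hn)) (inv_mem hu)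
    simp only [Subgroup.coe_mul, Subgroup.coe_inv, e]
    convert this using 1
    group⟩
  have hNc : Nat.card N = Nat.card T.U1 := Nat.card_congr (Subgroup.subgroupOfEquivOfLe hUB).toEquiv
  have hNi : N.index = Nat.card T.H0 := by
    have := N.card_mul_index
    rw [hNc, T.card_B1] at this
    exact Nat.eq_of_mul_eq_mul_left Nat.card_pos this
  haveI : Finite N := inferInstance
  have hsol : Group.IsSolvable N := by
    haveI := (hpU.of_equiv (Subgroup.subgroupOfEquivOfLe hUB).symm).isNilpotent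
    infer_instance
  let f : ↥T.H0 →* ↥T.B1 :=
    { toFun := fun h => ⟨ap θ₁ h, (hB _ (H0_le_G1 T h.2)).2 (hHB h.2)⟩
      map_one' := Subtype.ext (ap_one θ₁)
      map_mul' := fun a b => Subtype.ext (ap_mul θ₁ (H0_le_G1 T a.2) (H0_le_G1 T b.2)) }
  have hf : Function.Injective f := fun a b e =>
    Subtype.ext (ap_inj θ₁ (H0_le_G1 T a.2) (H0_le_G1 T b.2) (congrArg Subtype.val e))
  obtain ⟨b, hb⟩ := Cfsg.Agent.H19.sz_conj_of_solvable N hsol (by rw [hNc, hNi]; exact hco)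
    (H := f.range) (K := T.H0.subgroupOf T.B1)
    (by rw [hNi]; exact (Nat.card_congr (MonoidHom.ofInjective hf).toEquiv).symm)
    (by rw [hNi]; exact Nat.card_congr (Subgroup.subgroupOfEquivOfLe hHB).toEquiv)
  set y : ↥T.G1 := ⟨b, T.B1_le_G1 b.2⟩
  have hyU : Fixes (MulAut.conj y) T.U1 := fixes_of_map _ fun g hg hgU => by
    rw [ap_conj_aut y hg]
    obtain ⟨u, hu, h, hh, e⟩ := T.B1_eq b.2
    show (b : Γ) * g * (b : Γ)⁻¹ ∈ T.U1
    rw [e]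
    have := mul_mem (mul_mem hu (T.H0_conj_U1 hh hgU)) (inv_mem hu)
    convert this using 1
    group
  refine ⟨y * x₁, ?_⟩
  rw [map_mul, mul_assoc]
  have hU₂ : Fixes (MulAut.conj y * θ₁) T.U1 := hyU.mul hU₁
  have hH₂ : Fixes (MulAut.conj y * θ₁) T.H0 := fixes_of_map _ fun g hg hgH => by
    rw [ap_comp _ _ hg, ap_conj_aut y (ap_mem θ₁ hg)]
    have hmem : MulAut.conj b • (f ⟨g, hgH⟩) ∈ MulAut.conj b • f.range :=
      Subgroup.smul_mem_pointwise_smul _ _ _ ⟨_, rfl⟩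
    rw [hb, MulAut.smul_def, MulAut.conj_apply, Subgroup.mem_subgroupOf] at hmem
    exact hmem
  exact ⟨hU₂, hH₂, fun j => ⟨fixes_X1 T hne hfree hU₂ hH₂ hq hX j, ap_nS T hne hfree hU₂ hH₂ hq hX j⟩⟩

/-- An automorphism fixing the class groups pointwise and the representatives up to the diagonal group is trivial. -/
theorem eq_one (hne : ∀ j, ∃ x ∈ T.X1 j, x ≠ 1) {θ : MulAut ↥T.G1} (hH : Fixes θ T.H0) (hU : Fixes θ T.U1)
    (hcomm : ∀ a ∈ T.H0, ∀ b ∈ T.H0, a * b = b * a)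
    (hfaith : ∀ h ∈ T.H0, (∀ j, ∀ x ∈ T.X1 j, h * x * h⁻¹ = x) → h = 1)
    (hn : ∀ j, ∃ k ∈ T.H0, ap θ (T.nS j) = k * T.nS j) (hx : ∀ j, ∀ x ∈ T.X1 j, ap θ x = x) : θ = 1 := by
  have hXG : ∀ j, T.X1 j ≤ T.G1 := fun j => (X1_le_U1 T j).trans T.U1_le_G1
  have hh : ∀ h ∈ T.H0, ap θ h = h := by
    intro h hh'
    have hG := H0_le_G1 T hh'
    have hk : ap θ h ∈ T.H0 := (hH h hG).2 hh'
    refine inv_mul_eq_one.1 (hfaith ((ap θ h)⁻¹ * h) (mul_mem (inv_mem hk) hh') fun j x hxX => ?_) |>.symm.symm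
    have hxX' : h * x * h⁻¹ ∈ T.X1 j := by
      rw [← U1w_nS T hne j] at hxX ⊢
      exact H0_conj_U1w T (T.nS_mem_N0 j) hh' hxX
    have e := hx j _ hxX'
    rw [ap_conj θ hG (hXG j hxX), hx j x hxX] at e
    calc (ap θ h)⁻¹ * h * x * ((ap θ h)⁻¹ * h)⁻¹ = (ap θ h)⁻¹ * (h * x * h⁻¹) * ap θ h := by group
      _ = x := by rw [← e]; group
  have hfix : ∀ j, ap θ (T.nS j) = T.nS j := by
    intro j
    obtain ⟨k, hk, e⟩ := hn j
    set n := T.nS j with hndef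
    have hnN : n ∈ T.N0 := T.nS_mem_N0 j
    obtain ⟨x, hxX, hx1⟩ := hne j
    obtain ⟨u, hu, huf, h, hhH, u', hu', hu'f, hr⟩ := T.rank_one j x hxX.1 hxX.2 hx1
    have hu1 : u ∈ T.U1 := ⟨T.X_le_U j hu, huf⟩
    obtain ⟨b, hb, v, hv, hnv⟩ := T.exists_normal_form hnN (u := u') ⟨hu', hu'f⟩
    have hv' : v ∈ T.X1 j := by rwa [← U1w_nS T hne j]
    have hb' : u * h * b ∈ T.B1 := mul_mem (mul_mem ((le_sup_left : T.U1 ≤ T.B1) hu1)
      ((le_sup_right : T.H0 ≤ T.B1) hhH)) hb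
    obtain ⟨w, hw, l, hl, hbe⟩ := T.B1_eq hb'
    have key : n * x * n⁻¹ = w * l * n * v := by
      rw [← hbe, show n * x * n⁻¹ = u * h * n * u' from hr, mul_assoc _ n u', hnv]; group
    have hnG := T.N0_le_G1 hnN
    have hwG := T.U1_le_G1 hw
    have hlG := H0_le_G1 T hl
    have h2 := congrArg (ap θ) key
    rw [ap_conj θ hnG (hXG j hxX), ap_mul θ (mul_mem (mul_mem hwG hlG) hnG) (hXG j hv'),
      ap_mul θ (mul_mem hwG hlG) hnG, ap_mul θ hwG hlG, hh l hl, e, hx j x hxX, hx j v hv'] at h2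
    have hw' : ap θ w ∈ T.U1 := (hU w hwG).2 hw
    have hkk : n * k⁻¹ * n⁻¹ ∈ T.H0 := T.H0_normal hnN (inv_mem hk)
    have hvk : k * v * k⁻¹ ∈ T.U1w n := H0_conj_U1w T hnN hk hv
    have e3 : (k * w * k⁻¹) * (k * l * (n * k⁻¹ * n⁻¹)) * n * (k * v * k⁻¹) = ap θ w * (l * k) * n * v := by
      calc (k * w * k⁻¹) * (k * l * (n * k⁻¹ * n⁻¹)) * n * (k * v * k⁻¹) = k * (w * l * n * v) * k⁻¹ := by group
        _ = k * n * x * (k * n)⁻¹ := by rw [← key]; group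
        _ = _ := by rw [h2]; group
    obtain ⟨e4, -⟩ := bmv_unique T
      (mul_mem ((le_sup_left : T.U1 ≤ T.B1) (T.H0_conj_U1 hk hw))
        ((le_sup_right : T.H0 ≤ T.B1) (mul_mem (mul_mem hk hl) hkk)))
      (mul_mem ((le_sup_left : T.U1 ≤ T.B1) hw') ((le_sup_right : T.H0 ≤ T.B1) (mul_mem hl hk))) hvk hv e3
    obtain ⟨-, e5⟩ := uh_unique T (T.H0_conj_U1 hk hw) hw' (mul_mem (mul_mem hk hl) hkk) (mul_mem hl hk) e4
    rw [hcomm k hk l hl, mul_eq_left, conj_eq_one_iff, inv_eq_one] at e5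
    rw [e, e5, one_mul]
  let K : Subgroup Γ :=
    { carrier := {g | g ∈ T.G1 ∧ ap θ g = g}
      one_mem' := ⟨one_mem _, ap_one θ⟩
      mul_mem' := fun {a b} ha hb => ⟨mul_mem ha.1 hb.1, by rw [ap_mul θ ha.1 hb.1, ha.2, hb.2]⟩
      inv_mem' := fun {a} ha => ⟨inv_mem ha.1, by rw [ap_inv θ ha.1, ha.2]⟩ }
  have := T.G1_le K (fun j x hxX => ⟨hXG j hxX, hx j x hxX⟩)
    (fun j => ⟨T.N0_le_G1 (T.nS_mem_N0 j), hfix j⟩) fun h hh' => ⟨H0_le_G1 T hh', hh h hh'⟩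
  refine MulEquiv.ext fun g => Subtype.ext ?_
  have h1 := (this g.2).2
  rw [ap_coe θ g.2] at h1
  exact h1

end Cfsg.Agent.H70.F4Out
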