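import Cfsg.Agent.H70.F4Out.Coords
import Cfsg.Agent.H70.F4Out.Rigid
import Cfsg.Agent.H65.Twist.F4Statements
import Cfsg.Agent.H65.Chev.FieldFixed

/-!
Field automorphisms of the twisted groups of type F₄, and the facts needed by the rigidity argument.
-/

set_option autoImplicit false
set_option maxRecDepth 100000

open Cfsg.Lie Cfsg.Agent.H46 Cfsg.Agent.H65.Twist

namespace Cfsg.Agent.H70.F4Out

variable {K : Type*} [Field K] [Fintype K] [CharP K 2] {m : ℕ} (hK : Fintype.card K = 2 ^ (2 * m + 1))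

/-- The twisted data. -/
noncomputable abbrev TD : Cfsg.Agent.H47.TwistData ↥(chevF4.group K) (Fin 2) := (f4Setup K hK).data

theorem mem_X0 {x : ↥(chevF4.group K)} (hx : x ∈ (TD hK).X1 0) : ∃ t, x = pairU K m t := by
  obtain ⟨h1, h2⟩ := (f4Setup K hK).mem_X1.1 hx
  exact fixed_classA hK h1 h2

theorem mem_X1 {x : ↥(chevF4.group K)} (hx : x ∈ (TD hK).X1 1) : ∃ t u, x = b2U K m t u := by
  obtain ⟨h1, h2⟩ := (f4Setup K hK).mem_X1.1 hx
  exact fixed_classB hK h1 h2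

theorem X_cases {P : ↥(chevF4.group K) → Prop} (h0 : ∀ t, P (pairU K m t)) (h1 : ∀ t u, P (b2U K m t u))
    (j : Fin 2) : ∀ x ∈ (TD hK).X1 j, P x := by
  intro x hx
  obtain rfl | rfl : j = 0 ∨ j = 1 := by omega
  · obtain ⟨t, rfl⟩ := mem_X0 hK hx; exact h0 t
  · obtain ⟨t, u, rfl⟩ := mem_X1 hK hx; exact h1 t u

theorem pairU_G1 (t : K) : pairU K m t ∈ (TD hK).G1 := (TD hK).U1_le_G1 (pairU_mem_U1 hK t)

theorem b2U_G1 (t u : K) : b2U K m t u ∈ (TD hK).G1 := (TD hK).U1_le_G1 (b2U_mem_U1 hK t u)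

theorem H0_comm : ∀ a ∈ (TD hK).H0, ∀ b ∈ (TD hK).H0, a * b = b * a := by
  intro a ha b hb
  obtain ⟨y, hy⟩ := goodF4.mem_diagonal.1 (Subgroup.mem_subgroupOf.1 (Subgroup.mem_inf.1 ha).1)
  obtain ⟨z, hz⟩ := goodF4.mem_diagonal.1 (Subgroup.mem_subgroupOf.1 (Subgroup.mem_inf.1 hb).1)
  apply Subtype.ext
  rw [Subgroup.coe_mul, Subgroup.coe_mul, hy, hz, ← map_mul, ← map_mul, mul_comm]

theorem H0_faith : ∀ h ∈ (TD hK).H0, (∀ j, ∀ x ∈ (TD hK).X1 j, h * x * h⁻¹ = x) → h = 1 := by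
  intro h hh hfix
  obtain ⟨α, β, hA, hB, h1⟩ := torus_spec hK hh
  refine h1 (Units.ext ?_) (Units.ext ?_)
  · have e := (hA 1).symm.trans (hfix 0 _ (pairU_X1 hK 1))
    simpa using pairU_injective e
  · have e := (hB 1 0).symm.trans (hfix 1 _ (b2U_X1 hK 1 0))
    simpa using (b2U_injective e).1

variable (hm : 1 ≤ m)

include hK hm in
/-- Some element of the field is moved by the twisting map. -/
theorem exists_moved : ∃ c : K, iterateFrobenius K 2 m c ≠ c := by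
  classical
  obtain ⟨c, hc⟩ := IsCyclic.exists_generator (α := Kˣ)
  refine ⟨c, fun e => ?_⟩
  have hord : orderOf c = 2 ^ (2 * m + 1) - 1 := by
    rw [orderOf_eq_card_of_forall_mem_zpowers hc, Nat.card_units, Nat.card_eq_fintype_card, hK]
  have h1 : c ^ (2 ^ m - 1) = 1 := by
    have e2 : c ^ 2 ^ m = c := Units.ext (by rwa [iterateFrobenius_def, ← Units.val_pow_eq_pow_val] at e)
    have hp : 1 ≤ 2 ^ m := Nat.one_le_two_pow
    exact mul_right_cancel (b := c) (by rw [← pow_succ, Nat.sub_add_cancel hp, e2, one_mul])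
  have h2 : 2 ≤ 2 ^ m := Nat.le_self_pow (by omega) 2
  have hle := Nat.le_of_dvd (by omega) (orderOf_dvd_of_pow_eq_one h1)
  have hlt : 2 ^ m < 2 ^ (2 * m + 1) := Nat.pow_lt_pow_right (by omega) (by omega)
  omega

include hm in
theorem H0_free : ∀ j, ∀ x ∈ (TD hK).X1 j, (∀ h ∈ (TD hK).H0, h * x = x * h) → x = 1 := by
  obtain ⟨c, hc⟩ := exists_moved hK hm
  have hc0 : c ≠ 0 := fun e => hc (by rw [e, map_zero])
  have hc1 : c ≠ 1 := fun e => hc (by rw [e, map_one])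
  have hne : iterateFrobenius K 2 m c * c ≠ 1 := by
    intro e
    apply hc
    have h1 := congrArg (iterateFrobenius K 2 (m + 1)) e
    rw [map_mul, map_one, (f4_frob hK c).1, f4_psi c] at h1
    have h2 : (iterateFrobenius K 2 m c) ^ 2 * c = iterateFrobenius K 2 m c * c := by
      rw [e, ← h1, mul_comm]
    have h3 : iterateFrobenius K 2 m c = 1 := by
      have h4 : iterateFrobenius K 2 m c * c ≠ 0 := by rw [e]; exact one_ne_zero
      exact mul_right_cancel₀ h4 (by linear_combination h2)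
    rw [h3, one_mul] at e
    rw [h3, e]
  obtain ⟨h, hh, hA, hB, -⟩ := exists_torus hK (Units.mk0 c hc0) (Units.mk0 c hc0)
  refine X_cases hK (P := fun x => (∀ h ∈ (TD hK).H0, h * x = x * h) → x = 1) (fun t hx => ?_) fun t u hx => ?_
  · have e := hA t
    rw [hx h hh, mul_inv_cancel_right] at e
    have h1 := pairU_injective e
    rw [Units.val_mk0] at h1
    have : t = 0 := by
      by_contra ht
      exact hc1 (mul_right_cancel₀ ht (h1.symm.trans (one_mul t).symm))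
    rw [this, pairU_zero]
  · have e := hB t u
    rw [hx h hh, mul_inv_cancel_right] at e
    obtain ⟨h1, h2⟩ := b2U_injective e
    rw [Units.val_mk0] at h1 h2
    have ht : t = 0 := by
      by_contra ht
      exact hc1 (mul_right_cancel₀ ht (h1.symm.trans (one_mul t).symm))
    have hu : u = 0 := by
      by_contra hu
      exact hne (mul_right_cancel₀ hu (h2.symm.trans (one_mul u).symm))
    rw [ht, hu, b2U_zero]

include hm in
/-- Normalisation of an automorphism. -/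
theorem normalise' (θ : MulAut ↥(TD hK).G1) :
    ∃ x : ↥(TD hK).G1, Fixes (MulAut.conj x * θ) (TD hK).U1 ∧ Fixes (MulAut.conj x * θ) (TD hK).H0 ∧
      ∀ j, Fixes (MulAut.conj x * θ) ((TD hK).X1 j) ∧
        ∃ k ∈ (TD hK).H0, ap (MulAut.conj x * θ) ((TD hK).nS j) = k * (TD hK).nS j := by
  haveI : Fact (Nat.Prime 2) := ⟨Nat.prime_two⟩
  have hU := card_f4U1 hK
  set q := Fintype.card K with hq
  have hqe : Even q := by rw [hK]; exact (Nat.even_pow).2 ⟨even_two, by omega⟩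
  have hq2 : 2 ≤ q := by rw [hK]; exact Nat.le_self_pow (by omega) 2
  refine normalise (TD hK) (f4_hne hK) (H0_free hK hm) (q := q) (by omega) (card_f4X1 hK) (p := 2)
    (IsPGroup.of_card (n := (2 * m + 1) * 12) (by rw [hU, hK, ← pow_mul])) ?_ ?_ θ
  · have h := ((TD hK).U1.subgroupOf (TD hK).G1).card_mul_index
    rw [Nat.card_congr (Subgroup.subgroupOfEquivOfLe (TD hK).U1_le_G1).toEquiv, hU, card_f4G1 hK,
      mul_assoc, mul_assoc, mul_assoc] at h
    rw [Nat.eq_of_mul_eq_mul_left (by positivity) h]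
    have h1 : Odd (q - 1) := Nat.Even.sub_odd (by omega) hqe odd_one
    have h4 : Odd (q ^ 4 - 1) :=
      Nat.Even.sub_odd (Nat.one_le_pow _ _ (by omega)) ((Nat.even_pow).2 ⟨hqe, by omega⟩) odd_one
    have h3 : ∀ n, n ≠ 0 → Odd (q ^ n + 1) := fun n hn => ((Nat.even_pow).2 ⟨hqe, hn⟩).add_one
    exact Odd.not_two_dvd_nat (h1.mul ((h3 3 (by omega)).mul (h4.mul (h3 6 (by omega)))))
  · rw [hU, card_f4H0 hK]
    refine Nat.Coprime.pow _ _ ?_
    obtain ⟨r, hr⟩ : ∃ r, q = r + 1 := ⟨q - 1, by omega⟩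
    rw [← hq, hr, Nat.add_sub_cancel]
    exact Nat.coprime_self_add_left.2 (Nat.coprime_one_left _)

/-! ### Field automorphisms -/

omit [Fintype K] in
theorem mapGL_pos {σ : K →+* K} {g : GL chevF4.Idx K} (hg : g ∈ chevF4.posUnipotent K) :
    Cfsg.Agent.H65.mapGL chevF4 σ g ∈ chevF4.posUnipotent K := by
  suffices h : chevF4.posUnipotent K ≤ (chevF4.posUnipotent K).comap (Cfsg.Agent.H65.mapGL chevF4 σ) from h hg
  refine (Subgroup.closure_le _).2 ?_
  rintro g ⟨r, t, hr, hg⟩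
  rw [goodF4.eq_xg hg, SetLike.mem_coe, Subgroup.mem_comap, Cfsg.Agent.H65.mapGL_xg goodF4]
  exact goodF4.xg_mem_pos hr _

omit [Fintype K] in
theorem mapGL_pairU (σ : K →+* K) (t : K) :
    Cfsg.Agent.H65.mapGL chevF4 σ (pairU K m t : GL chevF4.Idx K) = pairU K m (σ t) := by
  rw [pairU, pairU, Subgroup.coe_mul, map_mul]
  show Cfsg.Agent.H65.mapGL chevF4 σ (goodF4.xg _ _) * Cfsg.Agent.H65.mapGL chevF4 σ (goodF4.xg _ _) = _
  rw [Cfsg.Agent.H65.mapGL_xg goodF4, Cfsg.Agent.H65.mapGL_xg goodF4, RingHom.map_iterateFrobenius]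
  rfl

omit [Fintype K] in
theorem mapGL_b2U (σ : K →+* K) (t u : K) :
    Cfsg.Agent.H65.mapGL chevF4 σ (b2U K m t u : GL chevF4.Idx K) = b2U K m (σ t) (σ u) := by
  show Cfsg.Agent.H65.mapGL chevF4 σ (goodF4.xg _ _ * goodF4.xg _ _ * goodF4.xg _ _ * goodF4.xg _ _) =
    goodF4.xg _ _ * goodF4.xg _ _ * goodF4.xg _ _ * goodF4.xg _ _
  simp only [map_mul, map_add, Cfsg.Agent.H65.mapGL_xg goodF4, RingHom.map_iterateFrobenius]

theorem mapGL_mem (σ : K →+* K) {g : GL chevF4.Idx K} (hg : g ∈ twistedF4 K (2 ^ m)) :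
    Cfsg.Agent.H65.mapGL chevF4 σ g ∈ twistedF4 K (2 ^ m) := by
  suffices h : twistedF4 K (2 ^ m) ≤ (twistedF4 K (2 ^ m)).comap (Cfsg.Agent.H65.mapGL chevF4 σ) from h hg
  refine (Subgroup.closure_le _).2 ?_
  rintro g ⟨L, hL, e⟩
  refine Subgroup.subset_closure ⟨L.map fun p => (p.1, σ p.2), ?_, ?_⟩
  · rcases hL with ⟨t, rfl | rfl⟩ | ⟨t, u, rfl | rfl⟩
    · exact Or.inl ⟨σ t, Or.inl (by simp [f4PairWord])⟩
    · exact Or.inl ⟨σ t, Or.inr (by simp [f4PairWord])⟩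
    · exact Or.inr ⟨σ t, σ u, Or.inl (by simp [b2ClassWord])⟩
    · exact Or.inr ⟨σ t, σ u, Or.inr (by simp [b2ClassWord])⟩
  · rw [Cfsg.Agent.H65.coe_mapGL, e]
    simp only [ChevalleyDatum.wordMat, List.map_map]
    clear hL e
    induction L with
    | nil => simp
    | cons p L ih =>
      rw [List.map_cons, List.prod_cons, List.map_cons, List.prod_cons, Matrix.map_mul, ih]
      congr 1
      simp only [Function.comp_apply]
      exact Cfsg.Agent.H47.x_map chevF4 σ p.1 p.2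

theorem G1_eq_f4W : (TD hK).G1 = f4W K m := (f4Setup K hK).G1_eq

theorem mapGL_G1 (σ : K →+* K) (g : ↥(TD hK).G1) :
    Cfsg.Agent.H65.mapGL chevF4 σ (g : GL chevF4.Idx K) ∈ twistedF4 K (2 ^ m) := by
  refine mapGL_mem σ ?_
  have h : (g : ↥(chevF4.group K)) ∈ f4W K m := G1_eq_f4W hK ▸ g.2
  exact h

/-- The endomorphism induced by a field endomorphism. -/
noncomputable def fieldHom (σ : K →+* K) : ↥(TD hK).G1 →* ↥(TD hK).G1 where
  toFun g := ⟨⟨_, twistedF4_le (mapGL_G1 hK σ g)⟩, (SetLike.ext_iff.1 (G1_eq_f4W hK) _).2 (mapGL_G1 hK σ g)⟩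
  map_one' := Subtype.ext (Subtype.ext (map_one _))
  map_mul' _ _ := Subtype.ext (Subtype.ext (map_mul _ _ _))

/-- The field automorphism. -/
noncomputable def fieldAut (σ : K ≃+* K) : MulAut ↥(TD hK).G1 :=
  MulEquiv.ofBijective (fieldHom hK σ.toRingHom)
    (Finite.injective_iff_bijective.1 fun _ _ e => Subtype.ext (Subtype.ext
      (Cfsg.Agent.H65.mapGL_injective _ (congrArg (fun g : ↥(TD hK).G1 => (g : GL chevF4.Idx K)) e))))

theorem coe_ap_field (σ : K ≃+* K) {g : ↥(chevF4.group K)} (hg : g ∈ (TD hK).G1) :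
    ((ap (fieldAut hK σ) g : ↥(chevF4.group K)) : GL chevF4.Idx K) = Cfsg.Agent.H65.mapGL chevF4 σ.toRingHom (g : GL chevF4.Idx K) := by
  rw [ap_coe _ hg]; rfl

theorem field_pairU (σ : K ≃+* K) (t : K) : ap (fieldAut hK σ) (pairU K m t) = pairU K m (σ t) :=
  Subtype.ext ((coe_ap_field hK σ (pairU_G1 hK t)).trans (mapGL_pairU _ t))

theorem field_b2U (σ : K ≃+* K) (t u : K) : ap (fieldAut hK σ) (b2U K m t u) = b2U K m (σ t) (σ u) :=
  Subtype.ext ((coe_ap_field hK σ (b2U_G1 hK t u)).trans (mapGL_b2U _ t u))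

theorem field_nS (σ : K ≃+* K) (j : Fin 2) : ap (fieldAut hK σ) ((TD hK).nS j) = (TD hK).nS j :=
  Subtype.ext ((coe_ap_field hK σ ((TD hK).N0_le_G1 ((TD hK).nS_mem_N0 j))).trans
    (Cfsg.Agent.H65.mapGL_nProd goodF4 _ _))

theorem field_U1 (σ : K ≃+* K) : Fixes (fieldAut hK σ) (TD hK).U1 := fixes_of_map _ fun g hg hgU =>
  (f4Setup K hK).mem_U1.2 ⟨by
    rw [coe_ap_field hK σ hg]; exact mapGL_pos ((f4Setup K hK).mem_U1.1 hgU).1,
    (f4Setup K hK).W_fixed _ ((f4Setup K hK).G1_eq ▸ ap_mem _ hg)⟩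

theorem field_H0 (σ : K ≃+* K) : Fixes (fieldAut hK σ) (TD hK).H0 := fixes_of_map _ fun g hg hgH =>
  Subgroup.mem_inf.2 ⟨Subgroup.mem_subgroupOf.2 (by
    rw [coe_ap_field hK σ hg]
    exact Cfsg.Agent.H65.mapGL_diagonal goodF4 _ (Subgroup.mem_subgroupOf.1 (Subgroup.mem_inf.1 hgH).1)),
    (f4Setup K hK).G1_eq ▸ ap_mem _ hg⟩

theorem field_X1 (σ : K ≃+* K) (j : Fin 2) : Fixes (fieldAut hK σ) ((TD hK).X1 j) := fixes_of_map _ fun g _ hx => by
  obtain rfl | rfl : j = 0 ∨ j = 1 := by omega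
  · obtain ⟨t, rfl⟩ := mem_X0 hK hx; rw [field_pairU]; exact pairU_X1 hK _
  · obtain ⟨t, u, rfl⟩ := mem_X1 hK hx; rw [field_b2U]; exact b2U_X1 hK _ _

include hK in
/-- The field automorphisms are as many as the degree. -/
theorem card_ringAut : Nat.card (K ≃+* K) = 2 * m + 1 := by
  haveI : Fact (Nat.Prime 2) := ⟨Nat.prime_two⟩
  letI : Algebra (ZMod 2) K := ZMod.algebra K 2
  let e : (K ≃ₐ[ZMod 2] K) ≃ (K ≃+* K) :=
    { toFun := fun f => f.toRingEquiv
      invFun := fun f => AlgEquiv.ofRingEquiv (f := f) fun z =>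
        RingHom.congr_fun (Subsingleton.elim (f.toRingHom.comp (algebraMap (ZMod 2) K)) (algebraMap (ZMod 2) K)) z
      left_inv := fun f => AlgEquiv.ext fun _ => rfl
      right_inv := fun f => RingEquiv.ext fun _ => rfl }
  rw [← Nat.card_congr e, IsGalois.card_aut_eq_finrank]
  have h := Module.natCard_eq_pow_finrank (K := ZMod 2) (V := K)
  rw [Nat.card_zmod, Nat.card_eq_fintype_card (α := K), hK] at h
  exact (Nat.pow_right_injective (show 2 ≤ 2 by omega) h).symm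

end Cfsg.Agent.H70.F4Out
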